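import Groth.Agent.Ega43.ClosedLocus
import Groth.Agent.Flat2D.ConstrGen

/-!
# Spreading out fibrewise closures of constructible sets, affine case

For `B` of finite presentation over `R`, `Z` a constructible subset of `Spec B` and `p` a point of `Spec R` there are a
finite subset `s` of `B` and a constructible set `V` containing `p` such that for each `t` in `V` the closure of `Z_t` in
the fibre over `t` is the trace of `V(s)`.
-/

set_option autoImplicit false

open TensorProduct Topology PrimeSpectrum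

namespace Groth.Agent.Ega4fib.H149.ClosureSpread

open Groth.Agent.Ega43.ConsCrit Groth.Agent.Ega43.SpreadNZD Groth.Agent.Ega43.ClosedLocus

universe u

/-- In a Noetherian spectrum a constructible set `Z` contains a principal open subset of its closure which is dense there. -/
theorem exists_basicOpen_inter_closure_subset {F : Type u} [CommRing F] [IsNoetherianRing F]
    {Z : Set (PrimeSpectrum F)} (hZ : IsConstructible Z) :
    ∃ b : F, (∀ q ∈ (vanishingIdeal Z).minimalPrimes, b ∉ q) ∧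
      (basicOpen b : Set (PrimeSpectrum F)) ∩ closure Z ⊆ Z := by
  have hcl : IsConstructible (closure Z) := by
    rw [← zeroLocus_vanishingIdeal_eq_closure]
    obtain ⟨s, hs⟩ := (isNoetherianRing_iff_ideal_fg F).mp inferInstance (vanishingIdeal Z)
    rw [← hs, PrimeSpectrum.zeroLocus_span]
    exact isConstructible_zeroLocus_of_finite s.finite_toSet
  have hT : IsConstructible (closure Z \ Z) := hcl.sdiff hZ
  -- generic points of the closure
  have key : ∀ q ∈ (vanishingIdeal Z).minimalPrimes, ∀ ξ : PrimeSpectrum F, ξ ∈ closure Z →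
      ξ.asIdeal ≤ q → ξ.asIdeal = q := by
    intro q hq ξ hξ hle
    rw [← zeroLocus_vanishingIdeal_eq_closure] at hξ
    exact le_antisymm hle (hq.2 ⟨ξ.2, hξ⟩ hle)
  have hfin : (vanishingIdeal Z).minimalPrimes.Finite := Ideal.finite_minimalPrimes_of_isNoetherianRing F _
  have hno : ∀ q ∈ (vanishingIdeal Z).minimalPrimes, ¬ vanishingIdeal (closure Z \ Z) ≤ q := by
    intro q hq hle
    have hqp : q.IsPrime := hq.1.1
    let q' : PrimeSpectrum F := ⟨q, hqp⟩
    have h1 : q' ∈ closure Z := by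
      rw [← zeroLocus_vanishingIdeal_eq_closure]
      exact hq.1.2
    have h2 : q' ∈ closure (closure Z \ Z) := by
      rw [← zeroLocus_vanishingIdeal_eq_closure]
      exact hle
    obtain ⟨ξ, hξ, hξq⟩ := Groth.Agent.Flat2D.ConstrGen.exists_specializes_of_mem_closure hZ h1
    obtain ⟨η, hη, hηq⟩ := Groth.Agent.Flat2D.ConstrGen.exists_specializes_of_mem_closure hT h2
    have h3 := key q hq ξ (subset_closure hξ) ((le_iff_specializes _ _).mpr hξq)
    have h4 := key q hq η hη.1 ((le_iff_specializes _ _).mpr hηq)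
    have h5 : ξ = η := PrimeSpectrum.ext (h3.trans h4.symm)
    exact hη.2 (h5 ▸ hξ)
  obtain ⟨b, hb, hb'⟩ : ∃ b ∈ vanishingIdeal (closure Z \ Z),
      ∀ q ∈ (vanishingIdeal Z).minimalPrimes, b ∉ q := by
    by_contra! H
    have hsub : ((vanishingIdeal (closure Z \ Z) : Ideal F) : Set F) ⊆
        ⋃ q ∈ ((hfin.toFinset : Finset (Ideal F)) : Set (Ideal F)), (q : Set F) := by
      intro b hb
      obtain ⟨q, hq, hbq⟩ := H b hb
      exact Set.mem_iUnion₂.mpr ⟨q, by simpa using hq, hbq⟩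
    obtain ⟨q, hq, hle⟩ := (Ideal.subset_union_prime (f := fun q : Ideal F ↦ q) ⊥ ⊥
      (fun q hq _ _ ↦ (hfin.mem_toFinset.mp hq).1.1)).mp hsub
    exact hno q (hfin.mem_toFinset.mp hq) hle
  refine ⟨b, hb', ?_⟩
  rintro x ⟨hxb, hx⟩
  by_contra hxZ
  exact hxb (PrimeSpectrum.mem_vanishingIdeal _ _ |>.mp hb x ⟨hx, hxZ⟩)

variable {R B : Type u} [CommRing R] [CommRing B] [Algebra R B]

/-- The fibrewise closure of `Z`: the set of points of `Spec B` which are specializations of a point of `Z` in the same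
fibre over `Spec R`. -/
def relClosure (R : Type u) {B : Type u} [CommRing R] [CommRing B] [Algebra R B]
    (Z : Set (PrimeSpectrum B)) : Set (PrimeSpectrum B) :=
  {x | ∃ z ∈ Z, z ⤳ x ∧ comap (algebraMap R B) z = comap (algebraMap R B) x}

theorem mulInj_quotient_of_forall {p : PrimeSpectrum R} {s : Set B} {b : B}
    (h : ∀ y : p.asIdeal.Fiber B, (1 ⊗ₜ[R] b) * y ∈
        Ideal.span ((fun b ↦ (1 : p.asIdeal.ResidueField) ⊗ₜ[R] b) '' s) →
      y ∈ Ideal.span ((fun b ↦ (1 : p.asIdeal.ResidueField) ⊗ₜ[R] b) '' s)) :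
    MulInj R (Ideal.Quotient.mk (Ideal.span s) b : B ⧸ Ideal.span s) p.asIdeal.ResidueField := by
  let I : Ideal B := Ideal.span s
  rw [mulInj_iff]
  intro y hy
  let g : p.asIdeal.Fiber B →ₐ[p.asIdeal.ResidueField] p.asIdeal.ResidueField ⊗[R] (B ⧸ I) :=
    Algebra.TensorProduct.map (AlgHom.id _ _) (Ideal.Quotient.mkₐ R I)
  have hg : Function.Surjective g :=
    LinearMap.lTensor_surjective _ (g := (Ideal.Quotient.mkₐ R I).toLinearMap)
      Ideal.Quotient.mk_surjective
  have hker : ∀ w, g w = 0 ↔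
      w ∈ Ideal.span ((fun b ↦ (1 : p.asIdeal.ResidueField) ⊗ₜ[R] b) '' s) := by
    intro w
    have h1 := Algebra.TensorProduct.lTensor_ker (R := R) (A := p.asIdeal.ResidueField)
      (Ideal.Quotient.mkₐ R I) Ideal.Quotient.mk_surjective
    have h2 : g w = 0 ↔ w ∈ RingHom.ker (Algebra.TensorProduct.map
        (AlgHom.id R p.asIdeal.ResidueField) (Ideal.Quotient.mkₐ R I)) := Iff.rfl
    rw [h2, h1]
    have h3 : RingHom.ker (Ideal.Quotient.mkₐ R I) = I := Ideal.mk_ker
    rw [h3, Ideal.map_span]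
    rfl
  obtain ⟨w, rfl⟩ := hg y
  have h4 : g ((1 ⊗ₜ[R] b) * w) = 0 := by
    rw [map_mul, ← hy]
    rfl
  rw [hker] at h4 ⊢
  exact h w h4

/-- If `b` is a nonzerodivisor on `κ(t) ⊗ B/(s)`, then each point of the fibre of `V(s)` over `t` is a specialization of
a point of the fibre of `V(s) ∩ D(b)` over `t`. -/
theorem exists_specializes_of_mulInj {s : Set B} {b : B} {t : PrimeSpectrum R}
    (hm : MulInj R (Ideal.Quotient.mk (Ideal.span s) b : B ⧸ Ideal.span s) t.asIdeal.ResidueField)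
    {x : PrimeSpectrum B} (hx : x ∈ zeroLocus s) (hxt : comap (algebraMap R B) x = t) :
    ∃ z : PrimeSpectrum B, z ∈ zeroLocus s ∧ b ∉ z.asIdeal ∧ z ⤳ x ∧
      comap (algebraMap R B) z = t := by
  obtain ⟨xC, rfl⟩ : x ∈ Set.range (comap (Ideal.Quotient.mk (Ideal.span s))) := by
    rw [range_comap_of_surjective _ _ Ideal.Quotient.mk_surjective, Ideal.mk_ker,
      PrimeSpectrum.zeroLocus_span]
    exact hx
  have hxC : comap (algebraMap R (B ⧸ Ideal.span s)) xC = t := hxt
  obtain ⟨q, hq, hqx⟩ := Ideal.exists_minimalPrimes_le (bot_le (a := (toFib t xC hxC).asIdeal))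
  have hq' : q ∈ minimalPrimes (t.asIdeal.Fiber (B ⧸ Ideal.span s)) := hq
  let qt : PrimeSpectrum (t.asIdeal.Fiber (B ⧸ Ideal.span s)) := ⟨q, hq.1.1⟩
  have hqt : qt ⤳ toFib t xC hxC := (le_iff_specializes _ _).mp hqx
  have hnz : (1 : t.asIdeal.ResidueField) ⊗ₜ[R] (Ideal.Quotient.mk (Ideal.span s) b :
      B ⧸ Ideal.span s) ∈ nonZeroDivisors (t.asIdeal.Fiber (B ⧸ Ideal.span s)) := by
    rw [mulInj_iff] at hm
    rw [mem_nonZeroDivisors_iff]
    exact ⟨fun y hy ↦ hm y hy, fun y hy ↦ hm y (by rwa [mul_comm])⟩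
  have hnq := (Set.disjoint_right.mp (Ideal.disjoint_nonZeroDivisors_of_mem_minimalPrimes hq')) hnz
  let ιC := (Algebra.TensorProduct.includeRight (R := R) (A := t.asIdeal.ResidueField)
    (B := B ⧸ Ideal.span s)).toRingHom
  refine ⟨comap (Ideal.Quotient.mk (Ideal.span s)) (comap ιC qt), ?_, hnq, ?_,
    comap_comap_includeRight t qt⟩
  · intro a ha
    have : Ideal.Quotient.mk (Ideal.span s) a = 0 :=
      Ideal.Quotient.eq_zero_iff_mem.mpr (Ideal.subset_span ha)
    change Ideal.Quotient.mk (Ideal.span s) a ∈ (comap ιC qt).asIdeal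
    rw [this]
    exact (comap ιC qt).asIdeal.zero_mem
  · have h1 : comap ιC qt ⤳ xC := by
      have := hqt.map (continuous_comap ιC)
      rwa [comap_toFib] at this
    exact h1.map (continuous_comap (Ideal.Quotient.mk (Ideal.span s)))

/-- The spreading out of the closure of the fibre `Z_p`. -/
theorem exists_closure_spread [Algebra.FinitePresentation R B] {Z : Set (PrimeSpectrum B)}
    (hZ : IsConstructible Z) (p : PrimeSpectrum R) :
    ∃ (s : Set B) (V : Set (PrimeSpectrum R)), s.Finite ∧ IsConstructible V ∧ p ∈ V ∧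
      ∀ x : PrimeSpectrum B, comap (algebraMap R B) x ∈ V →
        (x ∈ relClosure R Z ↔ x ∈ zeroLocus s) := by
  let ι := (Algebra.TensorProduct.includeRight (R := R) (A := p.asIdeal.ResidueField)
    (B := B)).toRingHom
  have hN : IsNoetherianRing (p.asIdeal.Fiber B) :=
    Algebra.FiniteType.isNoetherianRing p.asIdeal.ResidueField _
  have hfp := RingHom.finitePresentation_algebraMap.mpr
    (inferInstance : Algebra.FinitePresentation R B)
  have hZF : IsConstructible (comap ι ⁻¹' Z) := isConstructible_preimage_comap ι hZ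
  obtain ⟨b', hb', hb''⟩ := exists_basicOpen_inter_closure_subset hZF
  obtain ⟨r, hr, b, hb⟩ := Ideal.Fiber.exists_smul_eq_one_tmul (R := R) p.asIdeal (S := B) b'
  obtain ⟨s, hs, hsI⟩ := exists_generators p (vanishingIdeal (comap ι ⁻¹' Z))
  have hu : IsUnit (algebraMap R (p.asIdeal.Fiber B) r) := by
    rw [IsScalarTower.algebraMap_apply R p.asIdeal.ResidueField]
    refine IsUnit.map _ ?_
    rw [isUnit_iff_ne_zero, Ne, Ideal.algebraMap_residueField_eq_zero]
    exact hr
  -- `b` avoids the same primes as `b'`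
  have hbb : ∀ q : Ideal (p.asIdeal.Fiber B), (1 : p.asIdeal.ResidueField) ⊗ₜ[R] b ∈ q ↔ b' ∈ q := by
    intro q
    rw [← hb, Algebra.smul_def]
    exact Ideal.unit_mul_mem_iff_mem _ hu
  have hinj : MulInj R (Ideal.Quotient.mk (Ideal.span s) b : B ⧸ Ideal.span s)
      p.asIdeal.ResidueField := by
    apply mulInj_quotient_of_forall
    rw [← hsI]
    intro y hy
    have hrad : (vanishingIdeal (comap ι ⁻¹' Z)).radical = vanishingIdeal (comap ι ⁻¹' Z) :=
      (PrimeSpectrum.isRadical_vanishingIdeal _).radical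
    rw [← hrad, ← Ideal.sInf_minimalPrimes, Ideal.mem_sInf] at hy ⊢
    intro q hq
    have hqp : q.IsPrime := hq.1.1
    exact (hqp.mem_or_mem (hy hq)).resolve_left fun h ↦ hb' q hq ((hbb q).mp h)
  have hIfg : (Ideal.span s).FG := ⟨hs.toFinset, by simp⟩
  have hCfp : Algebra.FinitePresentation R (B ⧸ Ideal.span s) := .quotient hIfg
  obtain ⟨V₀, hV₀, hpV₀, hV₀'⟩ := exists_isConstructible_mulInj _ p hinj
  have hZs : IsConstructible (zeroLocus s) := isConstructible_zeroLocus_of_finite hs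
  have hfc : IsConstructible (basicOpen b : Set (PrimeSpectrum B)) :=
    (PrimeSpectrum.isCompact_basicOpen b).isConstructible (PrimeSpectrum.basicOpen b).isOpen
  have hQ := isConstructible_comap_image hfp (hZ.sdiff hZs)
  have hT' := isConstructible_comap_image hfp ((hZs.inter hfc).sdiff hZ)
  -- membership in `V(s)` on the fibre over `p`
  have hmem : ∀ (q : PrimeSpectrum B) (hq : comap (algebraMap R B) q = p),
      q ∈ zeroLocus s ↔ toFib p q hq ∈ closure (comap ι ⁻¹' Z) := by
    intro q hq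
    rw [← zeroLocus_vanishingIdeal_eq_closure, hsI, PrimeSpectrum.zeroLocus_span]
    constructor
    · rintro h _ ⟨c, hc, rfl⟩
      exact mem_toFib.mpr (h hc)
    · intro h c hc
      exact mem_toFib.mp (h ⟨c, hc, rfl⟩)
  refine ⟨s, V₀ ∩ (comap (algebraMap R B) '' (Z \ zeroLocus s))ᶜ ∩
    (comap (algebraMap R B) '' ((zeroLocus s ∩ basicOpen b) \ Z))ᶜ, hs,
    (hV₀.inter hQ.compl).inter hT'.compl, ⟨⟨hpV₀, ?_⟩, ?_⟩, ?_⟩
  · rintro ⟨q, ⟨hqZ, hqs⟩, hqp⟩
    refine hqs ((hmem q hqp).mpr (subset_closure ?_))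
    rw [Set.mem_preimage, comap_toFib]
    exact hqZ
  · rintro ⟨q, ⟨⟨hqs, hqb⟩, hqZ⟩, hqp⟩
    refine hqZ ?_
    have h1 : toFib p q hqp ∈ comap ι ⁻¹' Z := by
      refine hb'' ⟨?_, (hmem q hqp).mp hqs⟩
      intro h
      exact hqb (mem_toFib.mp ((hbb _).mpr h))
    rwa [Set.mem_preimage, comap_toFib] at h1
  · rintro x ⟨⟨hx₀, hx₁⟩, hx₂⟩
    constructor
    · rintro ⟨z, hz, hzx, hzt⟩
      have h1 : z ∈ zeroLocus s := by
        by_contra h
        exact hx₁ ⟨z, ⟨hz, h⟩, hzt⟩
      exact hzx.mem_closed (isClosed_zeroLocus s) h1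
    · intro hx
      obtain ⟨z, hz, hzb, hzx, hzt⟩ := exists_specializes_of_mulInj (hV₀' _ hx₀) hx rfl
      refine ⟨z, ?_, hzx, hzt⟩
      by_contra h
      exact hx₂ ⟨z, ⟨⟨hz, hzb⟩, h⟩, hzt⟩

end Groth.Agent.Ega4fib.H149.ClosureSpread
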