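import Groth.Agent.Ega4fib.H149.RelClosure
import Groth.Agent.Flat2D.ConstrGen
import Mathlib.AlgebraicGeometry.Fiber
import Mathlib.AlgebraicGeometry.Noetherian
import Mathlib.AlgebraicGeometry.Morphisms.FiniteType
import Mathlib.Topology.LocallyClosed

/-!
# Closed, open and locally closed traces of a locally constructible set on a fibre, in terms of specializations
-/

set_option autoImplicit false
universe u

open CategoryTheory AlgebraicGeometry Topology TopologicalSpace

namespace Groth.Agent.Ega4fib.H149.FibreTopLoc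

open Groth.Agent.Ega4fib.H149.RelClosure Groth.Agent.Flat2D.ConstrGen

/-- The preimage of a locally constructible set under a morphism of schemes is locally constructible. -/
theorem isLocallyConstructible_preimage {X' X : Scheme.{u}} (g : X' ⟶ X) {Z : Set X}
    (hZ : IsLocallyConstructible Z) : IsLocallyConstructible (g ⁻¹' Z) := by
  intro x
  obtain ⟨U, hU, hxU, -⟩ := exists_isAffineOpen_mem_and_subset
    (show g x ∈ (⊤ : X.Opens) from trivial)
  obtain ⟨V, hV, hxV, hVU⟩ := exists_isAffineOpen_mem_and_subset (show x ∈ g ⁻¹ᵁ U from hxU)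
  refine ⟨V, V.2.mem_nhds hxV, V.2, ?_⟩
  have h1 : IsConstructible (hU.fromSpec ⁻¹' Z) :=
    (hZ.preimage_of_isOpenEmbedding hU.fromSpec.isOpenEmbedding).isConstructible
  have h2 := Groth.Agent.Ega43.ClosedLocus.isConstructible_preimage_comap (g.appLE U V hVU).hom h1
  have h3 := h2.preimage_of_isOpenEmbedding hV.isoSpec.hom.isOpenEmbedding
  convert! h3 using 1
  have hc : ∀ x : Spec Γ(X', V), g (hV.fromSpec x) =
      hU.fromSpec (PrimeSpectrum.comap (g.appLE U V hVU).hom x) := by
    intro x
    have := hU.SpecMap_appLE_fromSpec g hV hVU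
    exact (congrArg (fun g ↦ g x) (congrArg (fun g : Spec Γ(X', V) ⟶ X ↦ (g : _ → X)) this)).symm
  ext y
  have hy : hV.fromSpec (hV.isoSpec.hom y) = y.1 := by
    have := hV.isoSpec_hom_fromSpec
    exact congrArg (fun g ↦ g y) (congrArg (fun g : V.toScheme ⟶ X' ↦ (g : _ → X')) this)
  change g y.1 ∈ Z ↔ hU.fromSpec (PrimeSpectrum.comap (g.appLE U V hVU).hom (hV.isoSpec.hom y)) ∈ Z
  rw [← hc, hy]

theorem isLocallyConstructible_compl {X : Scheme.{u}} {E : Set X} (hE : IsLocallyConstructible E) :
    IsLocallyConstructible Eᶜ := fun y ↦ by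
  obtain ⟨U, hU, hUo, hUE⟩ := hE y
  exact ⟨U, hU, hUo, hUE.compl⟩

/-- A closed subset of a locally Noetherian scheme is locally constructible. -/
theorem isLocallyConstructible_of_isClosed {X : Scheme.{u}} [IsLocallyNoetherian X] {E : Set X}
    (hE : IsClosed E) : IsLocallyConstructible E := by
  intro x
  obtain ⟨V, hV, hxV, -⟩ := exists_isAffineOpen_mem_and_subset
    (show x ∈ (⊤ : X.Opens) from trivial)
  refine ⟨V, V.2.mem_nhds hxV, V.2, ?_⟩
  have hN : IsNoetherianRing Γ(X, V) := IsLocallyNoetherian.component_noetherian ⟨V, hV⟩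
  have h0 : IsClosed (hV.fromSpec ⁻¹' E) := hE.preimage hV.fromSpec.continuous
  have h2 : IsConstructible (hV.fromSpec ⁻¹' E) := by
    rw [← isConstructible_compl]
    exact IsRetrocompact.isConstructible h0.isOpen_compl
      fun _ _ _ ↦ NoetherianSpace.isCompact (α := PrimeSpectrum Γ(X, V)) _
  have h3 := h2.preimage_of_isOpenEmbedding hV.isoSpec.hom.isOpenEmbedding
  convert! h3 using 1
  rw [← Set.preimage_comp, ← TopCat.coe_comp, ← Scheme.Hom.comp_base, hV.isoSpec_hom_fromSpec]
  rfl

/-- Closedness of a locally constructible set in terms of specializations. -/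
theorem isClosed_iff {X : Scheme.{u}} {E : Set X} (hE : IsLocallyConstructible E) :
    IsClosed E ↔ ∀ z x : X, z ∈ E → z ⤳ x → x ∈ E := by
  constructor
  · intro h z x hz hzx
    exact hzx.mem_closed h hz
  · intro h
    rw [← closure_subset_iff_isClosed]
    intro x hx
    obtain ⟨z, hz, hzx⟩ := exists_specializes_of_mem_closure' hE hx
    exact h z x hz hzx

/-- Local closedness of a constructible subset of a locally Noetherian scheme in terms of specializations. -/
theorem isLocallyClosed_iff {X : Scheme.{u}} [IsLocallyNoetherian X] {E : Set X}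
    (hE : IsLocallyConstructible E) :
    IsLocallyClosed E ↔ ∀ z x y : X, z ∈ E → z ⤳ x → x ⤳ y → y ∈ E → x ∈ E := by
  constructor
  · rintro ⟨U, C, hU, hC, rfl⟩ z x y hz hzx hxy hy
    exact ⟨hxy.mem_open hU hy.1, hzx.mem_closed hC hz.2⟩
  · intro h
    have h1 : IsLocallyConstructible (closure E \ E) :=
      (isLocallyConstructible_of_isClosed isClosed_closure).inter (isLocallyConstructible_compl hE)
    have h2 : IsClosed (closure E \ E) := by
      rw [isClosed_iff h1]
      rintro x y ⟨hx, hxE⟩ hxy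
      refine ⟨hxy.mem_closed isClosed_closure hx, fun hy ↦ hxE ?_⟩
      obtain ⟨z, hz, hzx⟩ := exists_specializes_of_mem_closure' hE hx
      exact h z x y hz hzx hxy hy
    rw [isLocallyClosed_iff_isOpen_coborder]
    exact h2.isOpen_compl

variable {X S : Scheme.{u}} (f : X ⟶ S)

theorem fiberι_apply {s : S} (x : f.fiber s) : f (f.fiberι s x) = s := by
  have h : f.fiberι s x ∈ Set.range (f.fiberι s) := ⟨x, rfl⟩
  rw [f.range_fiberι s] at h
  exact h

theorem exists_fiberι {s : S} {x : X} (hx : f x = s) : ∃ y : f.fiber s, f.fiberι s y = x := by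
  have : x ∈ Set.range (f.fiberι s) := by rw [f.range_fiberι s]; exact hx
  exact this

theorem isClosed_fibre_iff {Z : Set X} (hZ : IsLocallyConstructible Z) (s : S) :
    IsClosed (Subtype.val ⁻¹' Z : Set ↥(f.base ⁻¹' {s})) ↔
      ∀ z x : X, z ∈ Z → z ⤳ x → f z = s → f x = s → x ∈ Z := by
  have h1 : IsClosed (Subtype.val ⁻¹' Z : Set ↥(f.base ⁻¹' {s})) ↔ IsClosed (f.fiberι s ⁻¹' Z) :=
    ((f.fiberHomeo s).isClosed_preimage (s := (Subtype.val ⁻¹' Z : Set ↥(f.base ⁻¹' {s})))).symm
  rw [h1, isClosed_iff (isLocallyConstructible_preimage _ hZ)]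
  constructor
  · intro h z x hz hzx hfz hfx
    obtain ⟨z, rfl⟩ := exists_fiberι f hfz
    obtain ⟨x, rfl⟩ := exists_fiberι f hfx
    exact h z x hz ((f.fiberι s).isEmbedding.isInducing.specializes_iff.mp hzx)
  · intro h z x hz hzx
    exact h _ _ hz (hzx.map (f.fiberι s).continuous) (fiberι_apply f z) (fiberι_apply f x)

theorem isLocallyClosed_fibre_iff [LocallyOfFiniteType f] {Z : Set X}
    (hZ : IsLocallyConstructible Z) (s : S) :
    IsLocallyClosed (Subtype.val ⁻¹' Z : Set ↥(f.base ⁻¹' {s})) ↔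
      ∀ z x y : X, z ∈ Z → z ⤳ x → x ⤳ y → y ∈ Z → f z = s → f x = s → f y = s → x ∈ Z := by
  have hft : LocallyOfFiniteType (f.fiberToSpecResidueField s) :=
    MorphismProperty.pullback_snd _ _ inferInstance
  have hN : IsLocallyNoetherian (f.fiber s) :=
    LocallyOfFiniteType.isLocallyNoetherian (f.fiberToSpecResidueField s)
  have h1 : IsLocallyClosed (Subtype.val ⁻¹' Z : Set ↥(f.base ⁻¹' {s})) ↔
      IsLocallyClosed (f.fiberι s ⁻¹' Z) := by
    constructor
    · intro h
      exact h.preimage (f.fiberHomeo s).continuous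
    · intro h
      have := h.preimage (f.fiberHomeo s).symm.continuous
      convert! this using 1
      ext x
      simp
  rw [h1, isLocallyClosed_iff (isLocallyConstructible_preimage _ hZ)]
  constructor
  · intro h z x y hz hzx hxy hy hfz hfx hfy
    obtain ⟨z, rfl⟩ := exists_fiberι f hfz
    obtain ⟨x, rfl⟩ := exists_fiberι f hfx
    obtain ⟨y, rfl⟩ := exists_fiberι f hfy
    exact h z x y hz ((f.fiberι s).isEmbedding.isInducing.specializes_iff.mp hzx)
      ((f.fiberι s).isEmbedding.isInducing.specializes_iff.mp hxy) hy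
  · intro h z x y hz hzx hxy hy
    exact h _ _ _ hz (hzx.map (f.fiberι s).continuous) (hxy.map (f.fiberι s).continuous) hy
      (fiberι_apply f z) (fiberι_apply f x) (fiberι_apply f y)

variable [LocallyOfFinitePresentation f] [QuasiCompact f]

theorem isLocallyConstructible_isClosed {Z : Set X} (hZ : IsLocallyConstructible Z) :
    IsLocallyConstructible {s : S | IsClosed (Subtype.val ⁻¹' Z : Set ↥(f.base ⁻¹' {s}))} := by
  have h1 : IsLocallyConstructible (f '' (relClosureHom f Z \ Z)) :=
    f.isLocallyConstructible_image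
      ((isLocallyConstructible_relClosureHom f hZ).inter (isLocallyConstructible_compl hZ))
  convert! isLocallyConstructible_compl h1 using 1
  ext s
  rw [Set.mem_ofPred_eq, isClosed_fibre_iff f hZ]
  constructor
  · rintro h ⟨x, ⟨⟨z, hz, hzx, hf⟩, hx⟩, rfl⟩
    exact hx (h z x hz hzx hf rfl)
  · intro h z x hz hzx hfz hfx
    by_contra hx
    exact h ⟨x, ⟨⟨z, hz, hzx, hfz.trans hfx.symm⟩, hx⟩, hfx⟩

theorem isLocallyConstructible_isOpen {Z : Set X} (hZ : IsLocallyConstructible Z) :
    IsLocallyConstructible {s : S | IsOpen (Subtype.val ⁻¹' Z : Set ↥(f.base ⁻¹' {s}))} := by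
  have h1 := isLocallyConstructible_isClosed f (isLocallyConstructible_compl hZ)
  convert! h1 using 1
  ext s
  rw [Set.mem_ofPred_eq, Set.mem_ofPred_eq, Set.preimage_compl, isClosed_compl_iff]

theorem isLocallyConstructible_isLocallyClosed {Z : Set X} (hZ : IsLocallyConstructible Z) :
    IsLocallyConstructible
      {s : S | IsLocallyClosed (Subtype.val ⁻¹' Z : Set ↥(f.base ⁻¹' {s}))} := by
  have h1 : IsLocallyConstructible (f '' (relClosureHom f (relClosureHom f Z \ Z) ∩ Z)) :=
    f.isLocallyConstructible_image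
      ((isLocallyConstructible_relClosureHom f
        ((isLocallyConstructible_relClosureHom f hZ).inter (isLocallyConstructible_compl hZ))).inter
          hZ)
  convert! isLocallyConstructible_compl h1 using 1
  ext s
  rw [Set.mem_ofPred_eq, isLocallyClosed_fibre_iff f hZ]
  constructor
  · rintro h ⟨y, ⟨⟨x, ⟨⟨z, hz, hzx, hfz⟩, hx⟩, hxy, hfx⟩, hy⟩, rfl⟩
    exact hx (h z x y hz hzx hxy hy (hfz.trans hfx) hfx rfl)
  · intro h z x y hz hzx hxy hy hfz hfx hfy
    by_contra hx
    exact h ⟨y, ⟨⟨x, ⟨⟨z, hz, hzx, hfz.trans hfx.symm⟩, hx⟩, hxy, hfx.trans hfy.symm⟩, hy⟩, hfy⟩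

end Groth.Agent.Ega4fib.H149.FibreTopLoc
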