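import Groth.Agent.Ega4fib.H149.ClosureSpread
import Mathlib.AlgebraicGeometry.Morphisms.FinitePresentation

/-!
# Fibrewise closures of (locally) constructible sets are (locally) constructible

For a morphism `f : X ⟶ S` locally of finite presentation and a locally constructible subset `W` of `X`, the set of
points of `X` which are specializations of a point of `W` in the same fibre is locally constructible.
-/

set_option autoImplicit false

open TensorProduct Topology PrimeSpectrum

namespace Groth.Agent.Ega4fib.H149.RelClosure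

open Groth.Agent.Ega43.ConsCrit Groth.Agent.Ega43.ClosedLocus Groth.Agent.Ega4fib.H149.ClosureSpread

universe u

section Affine

variable {R B : Type u} [CommRing R] [CommRing B] [Algebra R B]

/-- The fibrewise closure of a constructible set is constructible, affine case. -/
theorem isConstructible_relClosure [Algebra.FinitePresentation R B] {Z : Set (PrimeSpectrum B)}
    (hZ : IsConstructible Z) : IsConstructible (relClosure R Z) := by
  choose s V hs hV hpV h using fun p : PrimeSpectrum R ↦ exists_closure_spread (R := R) hZ p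
  obtain ⟨t, ht⟩ := exists_finite_cover_of_isConstructible V hV hpV
  have key : relClosure R Z =
      ⋃ p ∈ (t : Set (PrimeSpectrum R)), (comap (algebraMap R B) ⁻¹' V p ∩ zeroLocus (s p)) := by
    ext x
    simp only [Set.mem_iUnion, Set.mem_inter_iff, Set.mem_preimage, Finset.mem_coe]
    constructor
    · intro hx
      have h1 : comap (algebraMap R B) x ∈ ⋃ p ∈ t, V p := by rw [ht]; trivial
      simp only [Set.mem_iUnion] at h1
      obtain ⟨p, hp, hxp⟩ := h1
      exact ⟨p, hp, hxp, (h p x hxp).mp hx⟩
    · rintro ⟨p, hp, hxp, hx⟩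
      exact (h p x hxp).mpr hx
  rw [key]
  exact IsConstructible.biUnion t.finite_toSet fun p _ ↦
    (isConstructible_preimage_comap _ (hV p)).inter (isConstructible_zeroLocus_of_finite (hs p))

end Affine

section Scheme

open CategoryTheory AlgebraicGeometry

variable {X S : Scheme.{u}}

/-- The fibrewise closure of a subset `W` of `X`, for `f : X ⟶ S`. -/
def relClosureHom (f : X ⟶ S) (W : Set X) : Set X := {x : X | ∃ z ∈ W, z ⤳ x ∧ f z = f x}

theorem subset_relClosureHom (f : X ⟶ S) (W : Set X) : W ⊆ relClosureHom f W :=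
  fun x hx ↦ ⟨x, hx, specializes_rfl, rfl⟩

/-- Compatibility of fibrewise closures with affine charts. -/
theorem preimage_relClosureHom (f : X ⟶ S) (W : Set X) {U : S.Opens} (hU : IsAffineOpen U)
    {V : X.Opens} (hV : IsAffineOpen V) (e : V ≤ f ⁻¹ᵁ U) :
    letI := (f.appLE U V e).hom.toAlgebra
    hV.fromSpec ⁻¹' relClosureHom f W =
      relClosure Γ(S, U) (B := Γ(X, V)) (hV.fromSpec ⁻¹' W) := by
  let _ := (f.appLE U V e).hom.toAlgebra
  have hc : ∀ x : Spec Γ(X, V), f (hV.fromSpec x) =
      hU.fromSpec (PrimeSpectrum.comap (algebraMap Γ(S, U) Γ(X, V)) x) := by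
    intro x
    have := hU.SpecMap_appLE_fromSpec f hV e
    exact (congrArg (fun g ↦ g x) (congrArg (fun g : Spec Γ(X, V) ⟶ S ↦ (g : _ → S)) this)).symm
  ext x
  constructor
  · rintro ⟨z, hz, hzx, hf⟩
    obtain ⟨z, rfl⟩ : z ∈ Set.range hV.fromSpec := by
      rw [hV.range_fromSpec]
      refine hzx.mem_open V.2 ?_
      have : hV.fromSpec x ∈ Set.range hV.fromSpec := ⟨x, rfl⟩
      rwa [hV.range_fromSpec] at this
    refine ⟨z, hz, ?_, ?_⟩
    · exact hV.fromSpec.isOpenEmbedding.isInducing.specializes_iff.mp hzx
    · rw [hc, hc] at hf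
      exact hU.fromSpec.isOpenEmbedding.injective hf
  · rintro ⟨z, hz, hzx, hf⟩
    refine ⟨hV.fromSpec z, hz, hzx.map hV.fromSpec.continuous, ?_⟩
    rw [hc, hc, hf]

/-- The fibrewise closure of a locally constructible set is locally constructible. -/
theorem isLocallyConstructible_relClosureHom (f : X ⟶ S) [LocallyOfFinitePresentation f]
    {W : Set X} (hW : IsLocallyConstructible W) : IsLocallyConstructible (relClosureHom f W) := by
  intro x
  obtain ⟨U, hU, hxU, -⟩ := exists_isAffineOpen_mem_and_subset
    (show f x ∈ (⊤ : S.Opens) from trivial)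
  obtain ⟨V, hV, hxV, hVU⟩ := exists_isAffineOpen_mem_and_subset (show x ∈ f ⁻¹ᵁ U from hxU)
  refine ⟨V, V.2.mem_nhds hxV, V.2, ?_⟩
  have hfp : (f.appLE U V hVU).hom.FinitePresentation :=
    f.finitePresentation_appLE hU hV hVU
  have h0 := preimage_relClosureHom f W hU hV hVU
  let _ := (f.appLE U V hVU).hom.toAlgebra
  have : Algebra.FinitePresentation Γ(S, U) Γ(X, V) := hfp
  have h1 : IsConstructible (hV.fromSpec ⁻¹' W) :=
    (hW.preimage_of_isOpenEmbedding hV.fromSpec.isOpenEmbedding).isConstructible
  have h2 : IsConstructible (hV.fromSpec ⁻¹' relClosureHom f W) := by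
    rw [h0]
    exact isConstructible_relClosure h1
  have h3 := h2.preimage_of_isOpenEmbedding hV.isoSpec.hom.isOpenEmbedding
  convert! h3 using 1
  rw [← Set.preimage_comp, ← TopCat.coe_comp, ← Scheme.Hom.comp_base, hV.isoSpec_hom_fromSpec]
  rfl

/-- Same, with the set written out. -/
theorem isLocallyConstructible_relClosure (f : X ⟶ S) [LocallyOfFinitePresentation f]
    {W : Set X} (hW : IsLocallyConstructible W) :
    IsLocallyConstructible {x : X | ∃ z ∈ W, z ⤳ x ∧ f z = f x} :=
  isLocallyConstructible_relClosureHom f hW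

end Scheme

end Groth.Agent.Ega4fib.H149.RelClosure
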